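import Cfsg.Agent.Transfer.Basic
import Cfsg.Agent.Solv.SchurZassenhaus

/-!
Lifting a normal `p`-complement over a normal subgroup inside the Frattini subgroup of a Sylow
`p`-subgroup.
-/

set_option autoImplicit false

namespace Cfsg.Agent.Transfer

open Subgroup
open scoped commutatorElement

variable {G : Type*} [Group G] [Finite G] {p : ℕ} [hp : Fact p.Prime]

/-- A normal `p`-complement lifts over a normal subgroup of the Frattini subgroup of a Sylow
`p`-subgroup. -/
theorem hasNPC_of_quotient_frattini (P : Sylow p G) (Q : Subgroup G) [hQn : Q.Normal]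
    (hQP : Q ≤ (P : Subgroup G))
    (hfr : Q ≤ (frattini ↥(P : Subgroup G)).map (P : Subgroup G).subtype)
    (h : HasNormalPComplement p (G ⧸ Q)) : HasNormalPComplement p G := by
  obtain ⟨Kb, hKb, hKc, n, hn⟩ := hasNPC_iff.mp h
  set K := Kb.comap (QuotientGroup.mk' Q) with hK
  haveI hKn : K.Normal := hKb.comap _
  have hQK : Q ≤ K := by
    intro x hx
    rw [hK, mem_comap, QuotientGroup.mk'_apply, (QuotientGroup.eq_one_iff x).mpr hx]
    exact one_mem _
  have hKi : K.index = p ^ n := by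
    rw [hK, index_comap_of_surjective _ (QuotientGroup.mk'_surjective Q), hn]
  set Q' := Q.subgroupOf K with hQ'
  obtain ⟨k, hk⟩ := IsPGroup.iff_card.mp (P.isPGroup'.to_le hQP)
  have hQ'c : Nat.card Q' = p ^ k := by
    rw [hQ', Nat.card_congr (subgroupOfEquivOfLe hQK).toEquiv, hk]
  have hQ'i : Q'.index = Nat.card Kb := by
    have h1 := Q'.card_mul_index
    have h2 := K.card_mul_index
    have h3 := Kb.card_mul_index
    have h4 : Q.index = Nat.card (G ⧸ Q) := Q.index_eq_card
    have h5 := Q.card_mul_index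
    rw [hn] at h3
    rw [hKi, ← h5, h4, ← h3, ← mul_assoc] at h2
    have h6 : Nat.card K = Nat.card Q * Nat.card Kb :=
      Nat.eq_of_mul_eq_mul_right (pow_pos hp.out.pos n) h2
    rw [hQ'c, h6, hk] at h1
    exact Nat.eq_of_mul_eq_mul_left (pow_pos hp.out.pos k) h1
  have hcop : (Nat.card Q').Coprime Q'.index := by
    rw [hQ'c, hQ'i]
    exact Nat.Coprime.pow_left k (hp.out.coprime_iff_not_dvd.mpr hKc)
  obtain ⟨T, hT⟩ := exists_right_complement'_of_coprime hcop
  set T₀ := T.map K.subtype with hT₀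
  have hTcard : Nat.card T = Nat.card Kb := by rw [← hQ'i, hT.symm.index_eq_card]
  have hTi : T.index = p ^ k := by rw [hT.index_eq_card, hQ'c]
  have hT₀K : T₀ ≤ K := map_subtype_le T
  have hT₀c : Nat.card T₀ = Nat.card Kb := by
    rw [hT₀, ← hTcard]
    exact (Nat.card_congr (T.equivMapOfInjective K.subtype K.subtype_injective).toEquiv).symm
  have hsup : T₀ ⊔ Q = K := by
    rw [hT₀]
    conv_lhs => rw [← map_subgroupOf_eq_of_le hQK]
    rw [← Subgroup.map_sup, ← hQ', sup_comm, hT.sup_eq_top, ← MonoidHom.range_eq_map, range_subtype]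
  -- Frattini argument
  have hfrat : ∀ g : G, ∃ q ∈ Q, q * g ∈ normalizer (T₀ : Set G) := by
    intro g
    have hsolv : Group.IsSolvable Q' := by
      haveI := (P.isPGroup'.to_le hQP).isNilpotent
      haveI : Group.IsSolvable Q := inferInstance
      exact Group.isSolvable_of_isSolvable_injective
        (f := (subgroupOfEquivOfLe hQK).toMonoidHom) (hf := (subgroupOfEquivOfLe hQK).injective)
    set S := (T₀.map (MulAut.conj g).toMonoidHom).subgroupOf K with hS
    have hle : T₀.map (MulAut.conj g).toMonoidHom ≤ K := by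
      rintro _ ⟨t, ht, rfl⟩
      exact hKn.conj_mem t (hT₀K ht) g
    have hSc : Nat.card S = Nat.card Kb := by
      rw [hS, Nat.card_congr (subgroupOfEquivOfLe hle).toEquiv, ← hT₀c]
      exact (Nat.card_congr (T₀.equivMapOfInjective _ (MulAut.conj g).injective).toEquiv).symm
    have hSs : S ⊔ Q' = ⊤ := by
      have h1 : T₀.map (MulAut.conj g).toMonoidHom ⊔ Q = K := by
        have e : ∀ H : Subgroup G, H.Normal → H.map (MulAut.conj g).toMonoidHom = H := by
          intro H hH
          ext x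
          refine ⟨?_, fun hx => ⟨g⁻¹ * x * g, by simpa using hH.conj_mem x hx g⁻¹, by simp [mul_assoc]⟩⟩
          rintro ⟨y, hy, rfl⟩
          exact hH.conj_mem y hy g
        conv_lhs => rw [← e Q hQn]
        rw [← Subgroup.map_sup, hsup, e K hKn]
      refine map_injective K.subtype_injective ?_
      rw [Subgroup.map_sup, hS, hQ', map_subgroupOf_eq_of_le hle, map_subgroupOf_eq_of_le hQK, h1,
        ← MonoidHom.range_eq_map, range_subtype]
    have hKbc : (Nat.card Kb).Coprime (Nat.card Q') := by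
      rw [hQ'c]; exact (Nat.Coprime.pow_left k (hp.out.coprime_iff_not_dvd.mpr hKc)).symm
    obtain ⟨q, hq, hqe⟩ := Solv.sz_conj Q' hcop (Or.inl hsolv) (H := S) (K := T) hSs
      (hSc ▸ hKbc) (by rw [sup_comm]; exact hT.sup_eq_top) (hTcard ▸ hKbc)
    refine ⟨q, hq, mem_normalizer_iff.mpr fun t => ?_⟩
    have hmem : ∀ x : K, x ∈ T ↔ ((q : G) * g)⁻¹ * x * ((q : G) * g) ∈ T₀ := by
      intro x
      rw [← hqe, Solv.mem_conj_smul, hS, mem_subgroupOf]
      constructor
      · rintro ⟨t, ht, e⟩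
        have e' : g * t * g⁻¹ = (q : G)⁻¹ * x * q := by simpa using e
        rw [show ((q : G) * g)⁻¹ * x * ((q : G) * g) = t by
          rw [show ((q : G) * g)⁻¹ * x * ((q : G) * g) = g⁻¹ * ((q : G)⁻¹ * x * q) * g by group,
            ← e']
          group]
        exact ht
      · intro ht
        exact ⟨_, ht, by simp [mul_assoc]⟩
    constructor
    · intro ht
      have hx : (q : G) * g * t * ((q : G) * g)⁻¹ ∈ K := hKn.conj_mem t (hT₀K ht) _
      refine ⟨⟨_, hx⟩, (hmem _).mpr ?_, rfl⟩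
      simpa [mul_assoc] using ht
    · rintro ⟨x, hx, e⟩
      have h1 := (hmem x).mp hx
      rw [show (x : G) = (q : G) * g * t * ((q : G) * g)⁻¹ from e] at h1
      simpa [mul_assoc] using h1
  -- `P` normalizes the complement
  have hPN : (P : Subgroup G) ≤ normalizer (T₀ : Set G) := by
    set N := normalizer (T₀ : Set G) with hN
    have h1 : N.subgroupOf (P : Subgroup G) ⊔ frattini ↥(P : Subgroup G) = ⊤ := by
      refine eq_top_iff.mpr fun x _ => ?_
      obtain ⟨q, hq, hqx⟩ := hfrat x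
      obtain ⟨f, hf, hfe⟩ := hfr (inv_mem hq)
      have hq' : (⟨q * x, mul_mem (hQP hq) x.2⟩ : (P : Subgroup G)) ∈
          N.subgroupOf (P : Subgroup G) := mem_subgroupOf.mpr hqx
      have hx : x = f * ⟨q * x, mul_mem (hQP hq) x.2⟩ := Subtype.ext (by
        simp only [Subgroup.coe_mul]
        rw [show (f : G) = q⁻¹ from hfe, inv_mul_cancel_left])
      rw [hx, sup_comm]
      exact mul_mem_sup hf hq'
    intro x hx
    have h2 := frattini_nongenerating h1
    exact mem_subgroupOf.mp (h2 ▸ mem_top (⟨x, hx⟩ : (P : Subgroup G)))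
  haveI hT₀n : T₀.Normal := by
    rw [← normalizer_eq_top_iff, eq_top_iff]
    intro g _
    obtain ⟨q, hq, hqg⟩ := hfrat g
    rw [show g = q⁻¹ * (q * g) by group]
    exact mul_mem (inv_mem (hPN (hQP hq))) hqg
  refine hasNPC_of T₀ hT₀n (hT₀c ▸ hKc) ⟨k + n, ?_⟩
  rw [hT₀, index_map_subtype, hTi, hKi, pow_add]

/-- Burnside's criterion in the quotient by a normal subgroup of the Frattini subgroup containing
the derived subgroup of a Sylow subgroup. -/
theorem hasNPC_quotient_of_normalizer (P : Sylow p G) (Q : Subgroup G) [Q.Normal]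
    (hQP : Q ≤ (P : Subgroup G))
    (hcomm : ∀ a ∈ (P : Subgroup G), ∀ b ∈ (P : Subgroup G), a * b * a⁻¹ * b⁻¹ ∈ Q)
    (hN : HasNormalPComplement p ↥(normalizer ((P : Subgroup G) : Set G))) :
    HasNormalPComplement p (G ⧸ Q) := by
  refine hasNPC_of_burnside (P.mapSurjective (QuotientGroup.mk'_surjective Q)) ?_
  intro x hx
  obtain ⟨a, rfl⟩ := QuotientGroup.mk'_surjective Q x
  have hcomap : ((P : Subgroup G).map (QuotientGroup.mk' Q)).comap (QuotientGroup.mk' Q)
      = (P : Subgroup G) := by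
    rw [comap_map_eq, QuotientGroup.ker_mk', sup_eq_left.mpr hQP]
  have ha : a ∈ normalizer ((P : Subgroup G) : Set G) := by
    refine mem_normalizer_iff.mpr fun b => ?_
    have h1 := mem_normalizer_iff.mp hx (QuotientGroup.mk' Q b)
    rw [← map_mul, ← map_inv, ← map_mul] at h1
    simp only [Sylow.coe_mapSurjective] at h1
    rw [← mem_comap, ← mem_comap, hcomap] at h1
    exact h1
  rw [Sylow.coe_mapSurjective, mem_centralizer_iff]
  rintro _ ⟨b, hb, rfl⟩
  set N := normalizer ((P : Subgroup G) : Set G) with hNdef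
  let PN : Sylow p N := P.subtype le_normalizer
  obtain ⟨T, hTn, hTc⟩ := hasNPC_complement_every hN PN
  obtain ⟨t, ht, u, hu, htu⟩ : ∃ t ∈ T, ∃ u ∈ (PN : Subgroup N), t * u = ⟨a, ha⟩ := by
    obtain ⟨⟨⟨t, ht⟩, ⟨u, hu⟩⟩, e⟩ := hTc.2 (⟨a, ha⟩ : N)
    exact ⟨t, ht, u, hu, e⟩
  have huP : (u : G) ∈ (P : Subgroup G) := mem_subgroupOf.mp hu
  have hb' : (u : G) * b * (u : G)⁻¹ ∈ (P : Subgroup G) := mul_mem (mul_mem huP hb) (inv_mem huP)
  -- `t` centralizes `P`
  have hfix : ∀ c ∈ (P : Subgroup G), (t : G) * c * (t : G)⁻¹ = c := by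
    intro c hc
    have hcN : c ∈ N := le_normalizer hc
    have h1 : t * ⟨c, hcN⟩ * t⁻¹ * (⟨c, hcN⟩ : N)⁻¹ = 1 := by
      refine (disjoint_def.mp hTc.disjoint) ?_ ?_
      · rw [show t * ⟨c, hcN⟩ * t⁻¹ * (⟨c, hcN⟩ : N)⁻¹ =
          t * (⟨c, hcN⟩ * t⁻¹ * (⟨c, hcN⟩ : N)⁻¹) by group]
        exact mul_mem ht (hTn.conj_mem _ (inv_mem ht) _)
      · refine mem_subgroupOf.mpr ?_
        simp only [Subgroup.coe_mul, InvMemClass.coe_inv]
        exact mul_mem ((mem_normalizer_iff.mp t.2 c).mp hc) (inv_mem hc)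
    have h2 := congrArg (Subgroup.subtype N) h1
    simp only [map_mul, map_inv, map_one, coe_subtype] at h2
    exact mul_inv_eq_one.mp h2
  have hmem : a * b * a⁻¹ * b⁻¹ ∈ Q := by
    have hau : a = (t : G) * u := (congrArg Subtype.val htu).symm
    rw [hau, show (t : G) * u * b * ((t : G) * u)⁻¹ = (t : G) * ((u : G) * b * (u : G)⁻¹) * (t : G)⁻¹
      by group, hfix _ hb']
    exact hcomm _ huP _ hb
  rw [← map_mul, ← map_mul, QuotientGroup.mk'_eq_mk']
  refine ⟨(b * a)⁻¹ * (a * b), ?_, by group⟩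
  rw [show (b * a)⁻¹ * (a * b) = (b * a)⁻¹ * (a * b * a⁻¹ * b⁻¹) * (b * a) by group]
  simpa using Normal.conj_mem ‹Q.Normal› _ hmem (b * a)⁻¹

end Cfsg.Agent.Transfer
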